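import Mathlib
import Cfsg.Prelude.Def_OddOrderLocal
import Cfsg.Agent.Lib.Helper1.RankTwoLin
import Cfsg.Agent.Lib.Helper79.BG.Util

/-!
Small tools for the S1421 packages `LemA5` and `LemA7` (helper1).
-/

set_option autoImplicit false

namespace Cfsg.Agent.Lib.Helper1.BG

universe u

/-- A `p`-element normalizing a Sylow `p`-subgroup lies in it. -/
theorem mem_sylow_of_mem_normalizer {G : Type u} [Group G] {p : ℕ} [Fact p.Prime]
    (S : Sylow p G) {g : G} (hg : g ∈ Subgroup.normalizer ((S : Subgroup G) : Set G))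
    (hgp : ∃ k : ℕ, g ^ p ^ k = 1) : g ∈ (S : Subgroup G) := by
  have hZ : IsPGroup p (Subgroup.zpowers g) := Cfsg.Agent.Lib.Helper79.BG.isPGroup_zpowers hgp
  have hsup : IsPGroup p (Subgroup.zpowers g ⊔ (S : Subgroup G) : Subgroup G) :=
    IsPGroup.to_sup_of_normal_right' hZ S.isPGroup' ((Subgroup.zpowers_le).mpr hg)
  have h1 := S.3 hsup le_sup_right
  rw [← h1]
  exact Subgroup.mem_sup_left (Subgroup.mem_zpowers g)

/-- A `p`-element normalizing a subgroup `P` which is a Sylow `p`-subgroup lies in `P`. -/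
theorem mem_of_mem_normalizer_of_sylow {G : Type u} [Group G] {p : ℕ} [Fact p.Prime]
    {P : Subgroup G} (hP : ∃ S : Sylow p G, (S : Subgroup G) = P) {g : G}
    (hg : g ∈ Subgroup.normalizer (P : Set G)) (hgp : ∃ k : ℕ, g ^ p ^ k = 1) : g ∈ P := by
  obtain ⟨S, rfl⟩ := hP
  exact mem_sylow_of_mem_normalizer S hg hgp

/-- **Linearization of the derived subgroup.**  `N` a solvable subgroup of odd order normalizing a
`q`-subgroup `R` of rank at most `2` (`q` odd).  Every element of `⁅N, N⁆` of order prime to `q`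
centralizes `R`. -/
theorem commutator_centralizes_of_rank_two {G : Type u} [Group G] [Finite G] {q : ℕ}
    [Fact q.Prime] (hq2 : q ≠ 2) (R N : Subgroup G) (hR : IsPGroup q R)
    (hr : Cfsg.PRankLE q 2 R) (hN : N ≤ Subgroup.normalizer (R : Set G))
    (hNs : Group.IsSolvable N) (hNodd : Odd (Nat.card N)) {x : G} (hx : x ∈ ⁅N, N⁆)
    (hxq : (orderOf x).Coprime q) : x ∈ Subgroup.centralizer (R : Set G) := by
  obtain ⟨φ, hφ⟩ := Cfsg.Agent.Lib.Helper1.exists_linearization hq2 R N hR hr hN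
  rw [← Subgroup.map_subtype_commutator] at hx
  obtain ⟨x', hx', rfl⟩ := hx
  obtain ⟨n, hn⟩ := Cfsg.Agent.Lib.Helper1.map_commutator_isPGroup hq2 hNodd φ x' hx'
  have hord : orderOf ((x' ^ q ^ n : N) : G) ∣ orderOf ((x' : N) : G) := by
    rw [Subgroup.coe_pow]
    exact orderOf_pow_dvd _
  have h1 : ((x' ^ q ^ n : N) : G) ∈ Subgroup.centralizer (R : Set G) :=
    hφ (x' ^ q ^ n) hn (Nat.Coprime.coprime_dvd_left hord hxq)
  have hcop : (q ^ n).Coprime (orderOf ((x' : N) : G)) :=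
    Nat.Coprime.pow_left n (Nat.Coprime.symm hxq)
  obtain ⟨m, hm⟩ := exists_pow_eq_self_of_coprime hcop
  rw [Subgroup.coe_pow] at h1
  have h2 := (Subgroup.centralizer (R : Set G)).pow_mem h1 m
  rw [hm] at h2
  exact h2

/-- A group of order `p ^ 2` has `p`-rank at most `2`. -/
theorem pRankLE_two_of_card {G : Type u} [Group G] [Finite G] {p : ℕ} (A : Subgroup G)
    (hA : Nat.card A = p ^ 2) : Cfsg.PRankLE p 2 A := by
  intro B _ _
  rw [← hA]
  exact Subgroup.card_le_card_group B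

end Cfsg.Agent.Lib.Helper1.BG
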