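import Mathlib
import Cfsg.Prelude.Def_OddOrderLocal
import Cfsg.Agent.Lib.Helper70.BG.S1421Defs
import Cfsg.Agent.Lib.Helper1.BG.S1421Util
import Cfsg.Agent.Lib.Helper35.BG.Basic
import Cfsg.Agent.Lib.Helper79.BG.Util2
import Cfsg.Agent.Lib.Helper23.BenderMax2
import Cfsg.Agent.Lib.Helper22.CharP
import Cfsg.Agent.Lib.Helper22.Comp
import Cfsg.Agent.Lib.Helper53.Basic
import Cfsg.Agent.Lib.Helper24.PRank
import Cfsg.Agent.S0009

/-!
Package `LemA5` of the S1421 team project (helper70's statement, helper1's proof):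
`N_G(A) ≤ N_G(P)` in the context `CtxA`.
-/

set_option autoImplicit false

namespace Cfsg.Agent.Lib.Helper1.BG

open Cfsg.Agent.Lib.Helper35.BG

universe u

/-- An element normalizing `T` normalizes the image in `G` of a characteristic subgroup of `T`. -/
theorem mem_normalizer_map_of_characteristic {G : Type*} [Group G] {T : Subgroup G}
    {K : Subgroup T} (hK : K.Characteristic) {x : G}
    (hx : x ∈ Subgroup.normalizer (T : Set G)) :
    x ∈ Subgroup.normalizer ((K.map T.subtype : Subgroup G) : Set G) := by
  have key : ∀ x ∈ Subgroup.normalizer (T : Set G), ∀ y ∈ K.map T.subtype,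
      x * y * x⁻¹ ∈ K.map T.subtype := by
    rintro x hx _ ⟨y, hy, rfl⟩
    obtain ⟨h, h'⟩ := Cfsg.Agent.Lib.Helper53.conj_mem_of_characteristic hK hx y.2
      (by simpa using hy)
    exact ⟨⟨_, h⟩, h', rfl⟩
  rw [Subgroup.mem_normalizer_iff]
  intro y
  constructor
  · exact key x hx y
  · intro h
    have h1 := key x⁻¹ (inv_mem hx) _ h
    simpa [mul_assoc] using h1

/-- The normalizer of `A` normalizes the centralizer of `A`. -/
theorem normalizer_le_normalizer_centralizer {G : Type*} [Group G] (A : Subgroup G) :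
    Subgroup.normalizer (A : Set G) ≤
      Subgroup.normalizer ((Subgroup.centralizer (A : Set G) : Subgroup G) : Set G) := by
  have key : ∀ g ∈ Subgroup.normalizer (A : Set G), ∀ c ∈ Subgroup.centralizer (A : Set G),
      g * c * g⁻¹ ∈ Subgroup.centralizer (A : Set G) := by
    intro g hg c hc
    rw [Subgroup.mem_centralizer_iff]
    intro a ha
    have ha' : g⁻¹ * a * g ∈ A := by
      have h1 := (Subgroup.mem_normalizer_iff.mp (inv_mem hg) a).mp ha
      simpa using h1
    have h2 := Subgroup.mem_centralizer_iff.mp hc _ ha'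
    calc a * (g * c * g⁻¹) = g * ((g⁻¹ * a * g) * c) * g⁻¹ := by group
      _ = g * (c * (g⁻¹ * a * g)) * g⁻¹ := by rw [h2]
      _ = g * c * g⁻¹ * a := by group
  intro g hg
  rw [Subgroup.mem_normalizer_iff]
  intro c
  constructor
  · exact key g hg c
  · intro h
    have h1 := key g⁻¹ (inv_mem hg) _ h
    simpa [mul_assoc] using h1

theorem lemA5 : Cfsg.Agent.Lib.Helper70.BG21.LemA5.{u} := by
  intro G _ _ hG hrank hfocal M hM E hE hσ p hpF A P ctx
  classical
  have hpp : p.Prime := hpF.out
  have hPc : ∀ a ∈ P, ∀ b ∈ P, a * b = b * a := by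
    intro a ha b hb
    have h1 := (isMulCommutative_iff.mp ctx.comm) ⟨a, ha⟩ ⟨b, hb⟩
    exact congrArg Subtype.val h1
  have hPC : P ≤ Subgroup.centralizer (A : Set G) := by
    intro x hx
    rw [Subgroup.mem_centralizer_iff]
    intro a ha
    exact hPc a (ctx.A_le ha) x hx
  have hCE : Subgroup.centralizer (A : Set G) ≤ E := ctx.cent_le
  have hEM : E ≤ M := hE.1
  have hCN : Subgroup.centralizer (A : Set G) ≤ Subgroup.normalizer (A : Set G) :=
    centralizer_le_normalizer' A
  have hNC := normalizer_le_normalizer_centralizer A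
  -- `N_G(P) ≤ N_G(A)`
  have hNPN : Subgroup.normalizer (P : Set G) ≤ Subgroup.normalizer (A : Set G) := by
    have key : ∀ g ∈ Subgroup.normalizer (P : Set G), ∀ a ∈ A, g * a * g⁻¹ ∈ A := by
      intro g hg a ha
      apply ctx.omega
      · exact (Subgroup.mem_normalizer_iff.mp hg a).mp (ctx.A_le ha)
      · rw [conj_pow, ctx.ea.2 a ha]
        simp
    intro g hg
    rw [Subgroup.mem_normalizer_iff]
    intro a
    refine ⟨key g hg a, fun h => ?_⟩
    have h1 := key g⁻¹ (inv_mem hg) _ h
    simpa [mul_assoc] using h1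
  obtain ⟨S, hS⟩ := ctx.sylow
  have hA1 : A ≠ ⊥ := by
    intro h
    have h1 := ctx.cardA
    rw [h] at h1
    simp at h1
    have h2 : 1 < p ^ 2 := Nat.one_lt_pow (by norm_num) hpp.one_lt
    omega
  have hP1 : P ≠ ⊥ := by
    intro h
    apply hA1
    rw [eq_bot_iff, ← h]
    exact ctx.A_le
  have hPcomm : P ≤ ⁅Subgroup.normalizer (A : Set G), Subgroup.normalizer (A : Set G)⁆ := by
    have h1 := hfocal p S (by rw [hS]; exact hP1)
    rw [hS] at h1
    exact h1.trans (Subgroup.commutator_mono hNPN hNPN)
  have hAtop : A ≠ ⊤ := by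
    intro h
    have h1 : (⊤ : Subgroup G) ≤ M := h ▸ (ctx.A_le.trans (ctx.P_le.trans hEM))
    exact hM.1 (top_le_iff.mp h1)
  have hNtop : Subgroup.normalizer (A : Set G) ≠ ⊤ := normalizer_ne_top hG hA1 hAtop
  have hNs : Group.IsSolvable (Subgroup.normalizer (A : Set G)) := isSolvable_of_ne_top hG hNtop
  have hNodd : Odd (Nat.card (Subgroup.normalizer (A : Set G))) := odd_card_subgroup hG _
  have hCs : Group.IsSolvable (Subgroup.centralizer (A : Set G)) :=
    isSolvable_of_ne_top hG (fun h => hNtop (top_le_iff.mp (h ▸ hCN)))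
  -- `P` centralizes every `O_q(C)`
  have hcent : ∀ q : ℕ, q.Prime → P ≤ Subgroup.centralizer
      (((Cfsg.pCore q (Subgroup.centralizer (A : Set G))).map
        (Subgroup.centralizer (A : Set G)).subtype : Subgroup G) : Set G) := by
    intro q hq
    have : Fact q.Prime := ⟨hq⟩
    have hRq : IsPGroup q ((Cfsg.pCore q (Subgroup.centralizer (A : Set G))).map
        (Subgroup.centralizer (A : Set G)).subtype) :=
      (Cfsg.Agent.Lib.Helper22.pCore_isPGroup' q _).map _
    have hRC : (Cfsg.pCore q (Subgroup.centralizer (A : Set G))).map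
        (Subgroup.centralizer (A : Set G)).subtype ≤ Subgroup.centralizer (A : Set G) := by
      rintro _ ⟨y, -, rfl⟩
      exact y.2
    have hNR : Subgroup.normalizer (A : Set G) ≤ Subgroup.normalizer
        (((Cfsg.pCore q (Subgroup.centralizer (A : Set G))).map
          (Subgroup.centralizer (A : Set G)).subtype : Subgroup G) : Set G) :=
      fun g hg => mem_normalizer_map_of_characteristic
        (Cfsg.Agent.Lib.Helper22.pCore_char q _) (hNC hg)
    generalize (Cfsg.pCore q (Subgroup.centralizer (A : Set G))).map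
        (Subgroup.centralizer (A : Set G)).subtype = R at hRq hRC hNR ⊢
    by_cases hqp : q = p
    · subst hqp
      have hPR : P ≤ Subgroup.normalizer (R : Set G) := fun x hx => hNR (hCN (hPC hx))
      have hsup : IsPGroup q (P ⊔ R : Subgroup G) :=
        IsPGroup.to_sup_of_normal_right' ctx.pgroup hRq hPR
      have h1 := S.3 hsup (by rw [hS]; exact le_sup_left)
      have hRP : R ≤ P := by
        rw [← hS, ← h1]
        exact le_sup_right
      intro x hx
      rw [Subgroup.mem_centralizer_iff]
      intro r hr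
      exact hPc r (hRP hr) x hx
    · by_cases hR1 : R = ⊥
      · intro x hx
        rw [Subgroup.mem_centralizer_iff]
        intro r hr
        rw [hR1] at hr
        have hr1 : r = 1 := by simpa using hr
        rw [hr1]
        simp
      · have hqR : q ∣ Nat.card R := by
          obtain ⟨n, hn⟩ := IsPGroup.iff_card.mp hRq
          rcases n with _ | n
          · exfalso
            apply hR1
            rw [pow_zero] at hn
            exact Subgroup.card_eq_one.mp hn
          · rw [hn]
            exact dvd_pow_self q (Nat.succ_ne_zero n)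
        have hqE : q ∣ Nat.card E :=
          hqR.trans (Subgroup.card_dvd_of_le (hRC.trans hCE))
        have hqσ := hσ q hq hqE
        have hrM := hrank M hM q hq hqσ
        have hrR : Cfsg.PRankLE q 2 R := by
          rw [Cfsg.Agent.Lib.Helper24.pRankLE_subgroup_iff]
          intro B hBR hBc hBe
          exact (Cfsg.Agent.Lib.Helper24.pRankLE_subgroup_iff q 2 M).mp hrM B
            (hBR.trans (hRC.trans (hCE.trans hEM))) hBc hBe
        have hq2 : q ≠ 2 := by
          intro h2
          have h3 : q ∣ Nat.card G := hqR.trans (Subgroup.card_subgroup_dvd_card R)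
          rw [h2] at h3
          have h4 := hG.1
          rw [Nat.odd_iff] at h4
          omega
        intro x hx
        apply commutator_centralizes_of_rank_two hq2 R _ hRq hrR hNR hNs hNodd (hPcomm hx)
        obtain ⟨k, hk⟩ := ctx.pgroup ⟨x, hx⟩
        have h5 : orderOf x ∣ p ^ k :=
          orderOf_dvd_of_pow_eq_one (by simpa using congrArg Subtype.val hk)
        exact Nat.Coprime.coprime_dvd_left h5
          (Nat.Coprime.pow_left k ((Nat.coprime_primes hpp hq).mpr (Ne.symm hqp)))
  -- `P ≤ C_C(F(C)) ≤ F(C)`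
  have hPF : P ≤ Subgroup.centralizer
      (Cfsg.fittingOf (Subgroup.centralizer (A : Set G)) : Set G) := by
    rw [Subgroup.le_centralizer_iff]
    unfold Cfsg.fittingOf
    rw [Cfsg.Agent.S0009.result, Subgroup.map_iSup]
    apply iSup_le
    intro q
    rw [← Subgroup.le_centralizer_iff]
    exact hcent q q.2
  have hPF' : P ≤ Cfsg.fittingOf (Subgroup.centralizer (A : Set G)) := fun x hx =>
    Cfsg.Agent.Lib.Helper23.mem_fittingOf_of_centralizer _ hCs (hPC hx) (hPF hx)
  have hNF : Subgroup.normalizer (A : Set G) ≤ Subgroup.normalizer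
      (Cfsg.fittingOf (Subgroup.centralizer (A : Set G)) : Set G) :=
    fun g hg => mem_normalizer_map_of_characteristic
      (Cfsg.Agent.Lib.Helper22.fittingSubgroup_char _) (hNC hg)
  have hSF : (S : Subgroup G) ≤ Cfsg.fittingOf (Subgroup.centralizer (A : Set G)) := by
    rw [hS]; exact hPF'
  have h6 := Cfsg.Agent.Lib.Helper79.BG.le_normalizer_sylow_of_nilpotent
    (Cfsg.Agent.Lib.Helper79.BG.fittingOf_nilpotent (Subgroup.centralizer (A : Set G))) hNF
    (S.subtype hSF)
  rw [Sylow.coe_subtype, Subgroup.map_subgroupOf_eq_of_le hSF, hS] at h6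
  exact h6

end Cfsg.Agent.Lib.Helper1.BG
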