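import Mathlib
import Cfsg.Prelude.Def_OddOrderLocal
import Cfsg.Agent.Lib.Helper70.BG.S1421Defs
import Cfsg.Agent.Lib.Helper1.BG.S1421Util
import Cfsg.Agent.Lib.Helper3.BG95LemmaZ
import Cfsg.Agent.Lib.Helper35.BG.Basic

/-!
Package `LemA7` of the S1421 team project (helper70's statement, helper1's proof), taking the
package `LemOmega` as a hypothesis: `C_G(A) ≤ C_G(P)` and `[N, N] ≤ C_G(P)` for `N = N_G(A)`.
-/

set_option autoImplicit false

namespace Cfsg.Agent.Lib.Helper1.BG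

open Cfsg.Agent.Lib.Helper35.BG

universe u

theorem lemA7 (hO : Cfsg.Agent.Lib.Helper70.BG21.LemOmega.{u}) :
    Cfsg.Agent.Lib.Helper70.BG21.LemA7.{u} := by
  intro G _ _ hG M E p hpF A P ctx hNP
  classical
  have hpp : p.Prime := hpF.out
  have hAP : A ≤ P := ctx.A_le
  have hPc : ∀ a ∈ P, ∀ b ∈ P, a * b = b * a := by
    intro a ha b hb
    have h1 := (isMulCommutative_iff.mp ctx.comm) ⟨a, ha⟩ ⟨b, hb⟩
    exact congrArg Subtype.val h1
  have hPCA : P ≤ Subgroup.centralizer (A : Set G) := by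
    intro x hx
    rw [Subgroup.mem_centralizer_iff]
    intro a ha
    exact hPc a (hAP ha) x hx
  have hPCP : P ≤ Subgroup.centralizer (P : Set G) := by
    intro x hx
    rw [Subgroup.mem_centralizer_iff]
    intro a ha
    exact hPc a ha x hx
  have hCN : Subgroup.centralizer (A : Set G) ≤ Subgroup.normalizer (A : Set G) :=
    Subgroup.centralizer_le_normalizer _
  -- (1) `C_G(A) ≤ C_G(P)`
  have h1 : Subgroup.centralizer (A : Set G) ≤ Subgroup.centralizer (P : Set G) := by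
    intro c hc
    have hcN : c ∈ Subgroup.normalizer (P : Set G) := hNP (hCN hc)
    have ho : orderOf c ≠ 0 := (orderOf_pos c).ne'
    obtain ⟨k, m, hm, hkm⟩ := Nat.exists_eq_pow_mul_and_not_dvd ho p hpp.ne_one
    have hcm : c ^ m ∈ P := by
      refine mem_of_mem_normalizer_of_sylow ctx.sylow
        ((Subgroup.normalizer (P : Set G)).pow_mem hcN m) ⟨k, ?_⟩
      rw [← pow_mul, mul_comm, ← hkm]
      exact pow_orderOf_eq_one c
    refine hO p P c m ctx.pgroup ctx.comm hcN (hPCP hcm)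
      ((Nat.Prime.coprime_iff_not_dvd hpp).mpr hm).symm ?_
    intro x hx hxp
    have hxA : x ∈ A := ctx.omega x hx hxp
    exact (Subgroup.mem_centralizer_iff.mp hc x hxA).symm
  refine ⟨h1, ?_⟩
  -- (2) `[N, N] ≤ C_G(A)`
  obtain ⟨N, hN⟩ : ∃ N : Subgroup G, N = Subgroup.normalizer (A : Set G) := ⟨_, rfl⟩
  rw [← hN]
  have hA1 : A ≠ ⊥ := by
    intro h
    have h2 := ctx.cardA
    rw [h, Subgroup.card_bot] at h2
    have h5 := hpp.one_lt
    nlinarith
  have hAtop : A ≠ ⊤ := by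
    intro h
    apply ctx.not_le
    rw [h]
    intro x _
    have h2 : M ⊓ Subgroup.normalizer (A : Set G) = E := ctx.inter
    have h3 : x ∈ A := h ▸ Subgroup.mem_top x
    exact (h2 ▸ ctx.P_le (hAP h3) : x ∈ M ⊓ Subgroup.normalizer (A : Set G)).1
  have hNtop : N ≠ ⊤ := hN ▸ normalizer_ne_top hG hA1 hAtop
  obtain ⟨hodd, hsimple, hnc, hsolv⟩ := hG
  have hNs : Group.IsSolvable N := hsolv N hNtop
  have hNodd : Odd (Nat.card N) := hodd.of_dvd_nat (Subgroup.card_subgroup_dvd_card N)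
  have hp2 : p ≠ 2 := by
    rintro rfl
    have h2 : Odd (Nat.card A) := hodd.of_dvd_nat (Subgroup.card_subgroup_dvd_card A)
    rw [ctx.cardA] at h2
    revert h2
    decide
  have hAp : IsPGroup p A := ctx.pgroup.to_le hAP
  have hcomm_le : ⁅N, N⁆ ≤ N := Cfsg.Agent.Lib.Helper3.BG95.commutator_self_le N
  intro x hx
  obtain ⟨a, b, ha, hb, hxab, hap, hbp⟩ :=
    Cfsg.Agent.Lib.Helper3.BG95.exists_pPart_mul p x (isOfFinOrder_of_finite x)
  have hzx : Subgroup.zpowers x ≤ ⁅N, N⁆ := (Subgroup.zpowers_le).mpr hx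
  have haN : a ∈ N := hcomm_le (hzx ha)
  have haP : a ∈ P := by
    refine mem_of_mem_normalizer_of_sylow ctx.sylow (hNP (hN ▸ haN)) ?_
    obtain ⟨k, hk⟩ := hap ⟨a, Subgroup.mem_zpowers a⟩
    exact ⟨k, congrArg Subtype.val hk⟩
  have haC : a ∈ Subgroup.centralizer (A : Set G) := hPCA haP
  have hbC : b ∈ Subgroup.centralizer (A : Set G) :=
    commutator_centralizes_of_rank_two hp2 A N hAp (pRankLE_two_of_card A ctx.cardA)
      (hN ▸ le_rfl) hNs hNodd (hzx hb) hbp
  rw [hxab]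
  exact h1 ((Subgroup.centralizer (A : Set G)).mul_mem haC hbC)

end Cfsg.Agent.Lib.Helper1.BG
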